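import Mathlib
import Cfsg.Agent.S0025
import Cfsg.Agent.S0026
import Cfsg.Agent.S0055
import Cfsg.Agent.Lib.CoprimeCommutator
import Cfsg.Agent.OddOrderLocal.CyclicSub
set_option linter.all false

/-!
# Coprime action on a group all of whose Sylow subgroups are cyclic
-/

set_option autoImplicit false

namespace Cfsg.Agent.H521.ZCoprime

open Subgroup
open scoped commutatorElement

variable {Γ : Type*} [Group Γ] [Finite Γ]

/-- If `D` is cyclic and normalized by `L` and `A` then `[L, A]` centralizes `D`. -/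
theorem commutator_le_centralizer {D L A : Subgroup Γ} [IsCyclic D]
    (hL : L ≤ normalizer (D : Set Γ)) (hA : A ≤ normalizer (D : Set Γ)) :
    ⁅L, A⁆ ≤ centralizer (D : Set Γ) := by
  rw [commutator_le]
  intro l hl a ha
  let e := IsCyclic.mulAutMulEquiv D
  have hcomm : ∀ x y : MulAut D, x * y = y * x := by
    intro x y
    apply e.injective
    rw [map_mul, map_mul, mul_comm]
  have h1 : D.normalizerMonoidHom (⁅(⟨l, hL hl⟩ : normalizer (D : Set Γ)), ⟨a, hA ha⟩⁆) = 1 := by
    rw [map_commutatorElement, commutatorElement_eq_one_iff_mul_comm]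
    exact hcomm _ _
  have h2 : (⁅(⟨l, hL hl⟩ : normalizer (D : Set Γ)), ⟨a, hA ha⟩⁆) ∈ D.normalizerMonoidHom.ker := h1
  rw [normalizerMonoidHom_ker, mem_subgroupOf] at h2
  exact h2

/-- A group `A` acting on the `Z`-group `L` with `L = [L, A]`: then `L` is cyclic. -/
theorem isCyclic_of_commutator_eq {L A : Subgroup Γ} [IsZGroup L]
    (hA : A ≤ normalizer (L : Set Γ)) (h : ⁅L, A⁆ = L) : IsCyclic L := by
  have hD : (commutator L).map L.subtype = ⁅L, L⁆ := map_subtype_commutator L
  have hcyc : IsCyclic (⁅L, L⁆ : Subgroup Γ) := by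
    have h1 := IsZGroup.isCyclic_commutator (G := L)
    rw [← hD]
    exact isCyclic_of_surjective (f := ((commutator L).equivMapOfInjective _ L.subtype_injective).toMonoidHom)
      (MulEquiv.surjective _)
  have hLD : L ≤ normalizer ((⁅L, L⁆ : Subgroup Γ) : Set Γ) := by
    exact Cfsg.Agent.Lib.CoprimeCommutator.left_le_normalizer_commutator L L
  have hAD : A ≤ normalizer ((⁅L, L⁆ : Subgroup Γ) : Set Γ) := by
    intro a ha
    have h1 : L.map (MulAut.conj a).toMonoidHom = L := by
      have := mem_normalizer_iff_map_conj_eq.mp (hA ha)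
      exact this
    rw [mem_normalizer_iff_map_conj_eq]
    have h2 := map_commutator L L (MulAut.conj a).toMonoidHom
    rw [h1] at h2
    exact h2
  have hc : L ≤ centralizer ((⁅L, L⁆ : Subgroup Γ) : Set Γ) := by
    conv_lhs => rw [← h]
    exact commutator_le_centralizer hLD hAD
  have hker : (Abelianization.of : L →* Abelianization L).ker ≤ center L := by
    rw [Abelianization.ker_of]
    intro x hx
    rw [mem_center_iff]
    intro y
    have h1 : (x : Γ) ∈ (⁅L, L⁆ : Subgroup Γ) := by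
      rw [← hD]
      exact ⟨x, hx, rfl⟩
    have h2 := mem_centralizer_iff.mp (hc y.2) x h1
    exact Subtype.ext h2.symm
  have hnil : Group.IsNilpotent L := by
    have : Group.IsNilpotent (Abelianization L) := CommGroup.isNilpotent
    exact Subgroup.isNilpotent_of_ker_le_center _ hker
  infer_instance

/-- Coprime action on a group all of whose Sylow subgroups are cyclic. -/
theorem main {A K : Subgroup Γ} [IsZGroup K] (hAK : A ≤ normalizer (K : Set Γ))
    (hcop : (Nat.card A).Coprime (Nat.card K)) :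
    (Nat.card (K ⊓ centralizer (A : Set Γ) : Subgroup Γ)).Coprime
      (Nat.card K / Nat.card (K ⊓ centralizer (A : Set Γ) : Subgroup Γ)) ∧
    IsCyclic (⁅K, A⁆ : Subgroup Γ) ∧
    (⁅K, A⁆ : Subgroup Γ) ⊓ (K ⊓ centralizer (A : Set Γ)) = ⊥ ∧
    (⁅K, A⁆ : Subgroup Γ) ⊔ (K ⊓ centralizer (A : Set Γ)) = K := by
  classical
  have hsol : Group.IsSolvable K := inferInstance
  have hLK : ⁅K, A⁆ ≤ K := Cfsg.Agent.Lib.CoprimeCommutator.commutator_le_left hAK
  have hZL : IsZGroup (⁅K, A⁆ : Subgroup Γ) := IsZGroup.of_injective (inclusion_injective hLK)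
  have hAL := Cfsg.Agent.Lib.CoprimeCommutator.right_le_normalizer_commutator K A
  have hKL := Cfsg.Agent.Lib.CoprimeCommutator.left_le_normalizer_commutator K A
  have hLA := Cfsg.Agent.Lib.CoprimeCommutator.commutator_commutator_eq A K hAK hcop
  have hcyc : IsCyclic (⁅K, A⁆ : Subgroup Γ) := isCyclic_of_commutator_eq hAL hLA
  have hcomm : IsMulCommutative (⁅K, A⁆ : Subgroup Γ) := by
    let _ : CommGroup (⁅K, A⁆ : Subgroup Γ) := IsCyclic.commGroup
    exact ⟨⟨fun a b => mul_comm a b⟩⟩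
  have hcopL : (Nat.card A).Coprime (Nat.card (⁅K, A⁆ : Subgroup Γ)) :=
    Nat.Coprime.coprime_dvd_right (card_dvd_of_le hLK) hcop
  have hsplit := Cfsg.Agent.S0055.result A (⁅K, A⁆ : Subgroup Γ) hAL hcopL
  rw [hLA] at hsplit
  have hinf : (⁅K, A⁆ : Subgroup Γ) ⊓ (K ⊓ centralizer (A : Set Γ)) = ⊥ := by
    have h1 := hsplit.1
    rw [inf_comm, ← inf_assoc, inf_idem] at h1
    rw [← inf_assoc, inf_eq_left.mpr hLK, h1]
  have hsup : (⁅K, A⁆ : Subgroup Γ) ⊔ (K ⊓ centralizer (A : Set Γ)) = K :=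
    Cfsg.Agent.S0026.result A K hAK hcop (Or.inr hsol)
  refine ⟨?_, hcyc, hinf, hsup⟩
  set C : Subgroup Γ := K ⊓ centralizer (A : Set Γ) with hC
  set L : Subgroup Γ := ⁅K, A⁆ with hL
  have hCK : C ≤ K := inf_le_left
  have hcard : Nat.card K = Nat.card C * Nat.card L := by
    -- `K = L C` with `L` normal in `K`
    have h1 : Nat.card K = Nat.card (L.subgroupOf K) * Nat.card (C.subgroupOf K) := by
      have hcompl : IsComplement' (L.subgroupOf K) (C.subgroupOf K) := by
        have hn : (L.subgroupOf K).Normal := normal_subgroupOf_of_le_normalizer hKL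
        apply isComplement'_of_disjoint_and_mul_eq_univ
        · rw [disjoint_def]
          rintro ⟨x, hx⟩ h1 h2
          apply Subtype.ext
          have h3 : x ∈ L ⊓ C := ⟨h1, h2⟩
          rw [hinf, mem_bot] at h3
          exact h3
        · rw [← normal_mul, ← subgroupOf_sup hLK hCK, hsup, subgroupOf_self]
          rfl
      exact hcompl.card_mul_card.symm
    rw [h1, Nat.card_congr (subgroupOfEquivOfLe hLK).toEquiv,
      Nat.card_congr (subgroupOfEquivOfLe hCK).toEquiv, mul_comm]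
  rw [hcard, Nat.mul_div_cancel_left _ Nat.card_pos]
  rw [Nat.coprime_iff_gcd_eq_one]
  by_contra hne
  obtain ⟨p, hp, hpd⟩ := Nat.exists_prime_and_dvd hne
  have : Fact p.Prime := ⟨hp⟩
  have hpC : p ∣ Nat.card C := hpd.trans (Nat.gcd_dvd_left _ _)
  have hpL : p ∣ Nat.card L := hpd.trans (Nat.gcd_dvd_right _ _)
  -- an element of order `p` of `C`, in an `A`-invariant Sylow `p`-subgroup of `K`
  obtain ⟨r, hr⟩ := exists_prime_orderOf_dvd_card' p hpC
  have hr' : orderOf (r : Γ) = p := by rw [orderOf_coe, hr]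
  obtain ⟨z, hz⟩ := exists_prime_orderOf_dvd_card' p hpL
  have hz' : orderOf (z : Γ) = p := by rw [orderOf_coe, hz]
  have hrK : (r : Γ) ∈ K := hCK r.2
  obtain ⟨P, hP, -⟩ := Cfsg.Agent.S0025.result A K hAK hcop (Or.inr hsol) p (zpowers (r : Γ))
    (by rwa [zpowers_le]) (IsPGroup.of_card (n := 1) (by rw [Nat.card_zpowers, hr', pow_one])) (by
    intro a ha
    have h1 : a ∈ centralizer (zpowers (r : Γ) : Set Γ) := by
      rw [mem_centralizer_iff]
      rintro x hx
      obtain ⟨n, rfl⟩ := mem_zpowers_iff.mp hx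
      have h2 : (r : Γ) * a = a * r := (mem_centralizer_iff.mp r.2.2 a ha).symm
      exact (Commute.zpow_left (h2 : Commute (r : Γ) a) n)
    exact centralizer_le_normalizer _ h1)
  have hzK : (z : Γ) ∈ K := hLK z.2
  -- a conjugate of `z` in `P`
  have hzp : IsPGroup p (zpowers (⟨z, hzK⟩ : K)) :=
    IsPGroup.of_card (n := 1) (by rw [Nat.card_zpowers, orderOf_mk, hz', pow_one])
  obtain ⟨Q, hQ⟩ := hzp.exists_le_sylow
  obtain ⟨k, hk⟩ := MulAction.exists_smul_eq K Q P
  set w : Γ := k * z * (k : Γ)⁻¹ with hw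
  have hwL : w ∈ L := (mem_normalizer_iff.mp (hKL k.2) _).mp z.2
  have hwP : w ∈ (P : Subgroup K).map K.subtype := by
    refine ⟨k * ⟨z, hzK⟩ * k⁻¹, ?_, rfl⟩
    rw [← hk]
    exact smul_mem_pointwise_smul _ (MulAut.conj k) (Q : Subgroup K) (hQ (mem_zpowers _))
  have hwo : orderOf w = p := by
    have := orderOf_injective (MulAut.conj (k : Γ)).toMonoidHom (MulAut.conj (k : Γ)).injective (z : Γ)
    rw [← hz', ← this]
    simp [hw]
  have hPc : IsCyclic ((P : Subgroup K).map K.subtype) := by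
    exact isCyclic_of_surjective
      (f := ((P : Subgroup K).equivMapOfInjective _ K.subtype_injective).toMonoidHom)
      (MulEquiv.surjective _)
  have heq : zpowers (r : Γ) = zpowers w :=
    Cfsg.Agent.OddOrderLocal.CyclicSub.eq_of_card_eq_of_le_cyclic hPc hP (by rwa [zpowers_le])
      (by rw [Nat.card_zpowers, Nat.card_zpowers, hr', hwo])
  have hrL : (r : Γ) ∈ L := by
    have h1 : (r : Γ) ∈ zpowers w := heq ▸ mem_zpowers (r : Γ)
    exact (zpowers_le.mpr hwL) h1
  have hr1 : (r : Γ) ∈ L ⊓ C := ⟨hrL, r.2⟩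
  rw [hinf, mem_bot] at hr1
  rw [hr1, orderOf_one] at hr'
  exact hp.one_lt.ne hr'

end Cfsg.Agent.H521.ZCoprime
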